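import Cfsg.Agent.H798.OZ.EllFun
import Cfsg.Agent.S1055

/-!
# Elliptic elements of the Levi subgroups of `G₂(q)`, `q ≥ 5` (helper446, S4842)

Node `0` short, node `1` long.  `exists_ell` : two non conjugate elements `Ell {i}` for each node, from helper798's
general theorem `exists_ell_fun`; torus `q² - 1`.
-/

set_option autoImplicit false
set_option linter.unusedSectionVars false
set_option maxHeartbeats 400000

namespace Cfsg.Agent.H446.OZ.GTwo

open CoxeterSystem Subgroup Cfsg Cfsg.Lie Cfsg.Lie.ChevalleyDatum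
open Cfsg.Agent.ChevalleyStructure Cfsg.Agent.ChevalleyStructure.Elts Cfsg.Agent.ChevalleyStructure.CoxeterGeom
  Cfsg.Agent.ChevalleyStructure.CoxeterGeomTypes Cfsg.Agent.ChevalleyStructure.NPerm
open Cfsg.Agent.Tits.Roots Cfsg.Agent.Tits.Core Cfsg.Agent.Nodes Cfsg.Agent.Nodes.Reps Cfsg.Agent.Nodes.BNOf
  Cfsg.Agent.Nodes.RGDChev Cfsg.Agent.Nodes.Bruhat Cfsg.Agent.Nodes.StabComb Cfsg.Agent.Nodes.LeviDec
open Cfsg.Agent.KFacts.RgdChevCoord Cfsg.Agent.GenExc.Chev
open Cfsg.Agent.H129.TorusChar Cfsg.Agent.H557.LrData Cfsg.Agent.H557.LrRho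
open Cfsg.Agent.H985.VZ (Ell Free)
open Cfsg.Agent.H798.OZ

universe u v

/-- the functional with the values `c i` on the simple roots -/
def fn (c : Fin 2 → ℤ) : (Fin 2 → ℤ) →+ ℤ where
  toFun x := x 0 * c 0 + x 1 * c 1
  map_zero' := by simp
  map_add' x y := by simp only [Pi.add_apply]; ring

theorem fn_apply (c x : Fin 2 → ℤ) : fn c x = x 0 * c 0 + x 1 * c 1 := rfl

theorem fn_sr (c : Fin 2 → ℤ) (i : Fin 2) : fn c (sr i) = c i := by
  rw [fn_apply]
  fin_cases i <;> simp [sr]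

/-- the reflections: the `j`-coordinate of `s_k (sr i)` -/
def mat (k : Fin 2) : Fin 2 → Fin 2 → ℤ := if k = 0 then ![![-1, 3], ![0, 1]] else ![![1, 0], ![1, -1]]

theorem act : ∀ k i j : Fin 2, actW (cartanOf chevG2 2) [k] (sr i) j = mat k j i := by decide +kernel

/-- the functionals -/
def cc (q : ℤ) (k : Fin 2) : Fin 2 → ℤ := if k = 0 then ![1 - q, 2 * q - 1] else ![q, 1 - q]

/-- the roots are bounded -/
theorem tab : ∀ r < 12, ((vec chevG2 2 r 0, vec chevG2 2 r 1) : ℤ × ℤ) ∈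
    [((1 : ℤ), (0 : ℤ)), (0, 1), (1, 1), (2, 1), (3, 1), (3, 2), (-1, 0), (0, -1), (-1, -1), (-2, -1), (-3, -1),
      (-3, -2)] := by decide +kernel

theorem reg {q N : ℤ} (hq : 5 ≤ q) (hN : 2 * q + 1 < N) (k : Fin 2) {r : ℕ} (hr : r < 12) :
    ¬ N ∣ fn (cc q k) (vec chevG2 2 r) := by
  intro h
  rw [fn_apply] at h
  have h1 := tab r hr
  generalize vec chevG2 2 r 0 = a at h h1
  generalize vec chevG2 2 r 1 = b at h h1
  have h2 : a * cc q k 0 + b * cc q k 1 ≠ 0 ∧ |a * cc q k 0 + b * cc q k 1| < N := by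
    simp only [List.mem_cons, List.not_mem_nil, or_false, Prod.mk.injEq] at h1
    rw [abs_lt]
    fin_cases k <;> simp only [cc, Fin.zero_eta, Fin.mk_one, if_true, Fin.isValue, one_ne_zero, if_false,
      Matrix.cons_val_zero, Matrix.cons_val_one] <;>
      rcases h1 with ⟨rfl, rfl⟩ | ⟨rfl, rfl⟩ | ⟨rfl, rfl⟩ | ⟨rfl, rfl⟩ | ⟨rfl, rfl⟩ | ⟨rfl, rfl⟩ | ⟨rfl, rfl⟩ |
        ⟨rfl, rfl⟩ | ⟨rfl, rfl⟩ | ⟨rfl, rfl⟩ | ⟨rfl, rfl⟩ | ⟨rfl, rfl⟩ <;> omega
  exact h2.1 (Int.eq_zero_of_abs_lt_dvd h h2.2)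

variable {W : Type v} [Group W] [Finite W] (cs : CoxeterSystem CoxeterMatrix.G₂ W)

/-- the elements of the torus `q² - 1` -/
theorem elt (hp : IsType chevG2 2 CoxeterMatrix.G₂) {F : Type u} [Field F] [Fintype F] (hF : 5 ≤ Fintype.card F)
    {N m : ℕ} (hm : Fintype.card F ^ 2 = m * N + 1) (hN : 2 * Fintype.card F + 1 < N) (k : Fin 2) :
    ∃ s : ↥(chevG2.group F), Ell cs hp.isCartan (TT chevG2 F) (XX chevG2 2 F) {k} s ∧
      ∀ n : ℕ, s ^ n = 1 ↔ ∀ i, (N : ℤ) ∣ n * cc (Fintype.card F) k i := by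
  set q := Fintype.card F with hq
  have hqN : q.Coprime N := by
    rw [← Nat.isCoprime_iff_coprime]
    refine ⟨q, -m, ?_⟩
    have : (q : ℤ) ^ 2 = m * N + 1 := by exact_mod_cast hm
    linear_combination this
  have hdv : (N : ℤ) ∣ (q : ℤ) ^ 2 - 1 := ⟨m, by
    have : (q : ℤ) ^ 2 = m * N + 1 := by exact_mod_cast hm
    linear_combination this⟩
  have hrep : ∀ i, rep cs hp.isCartan (cs.wordProd [k]) (sr i) = fun j => mat k j i := by
    intro i
    rw [rep_word]
    funext j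
    exact act k i j
  have hclosed : ∃ a : AlgebraicClosure F, a ≠ 0 ∧ a ≠ 1 := by
    by_contra hcon
    push Not at hcon
    have h1 : ∀ a : F, a = 0 ∨ a = 1 := fun a => by
      by_cases h0 : a = 0
      · exact Or.inl h0
      · right
        have h2 := hcon (algebraMap F _ a) (by rwa [ne_eq, map_eq_zero])
        rwa [map_eq_one_iff _ (algebraMap F (AlgebraicClosure F)).injective] at h2
    have h2 : Fintype.card F ≤ 2 := by
      classical
      rw [← Finset.card_univ]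
      refine (Finset.card_le_card (t := {0, 1}) fun a _ => ?_).trans Finset.card_le_two
      rcases h1 a with h | h <;> simp [h]
    omega
  obtain ⟨s, h1, h2⟩ := exists_ell_fun hp cs rfl (center_eq_bot (S1055.result hclosed)) invC_G2 one_ne_zero
    (N := N) (Nat.coprime_one_right N) hqN (J := {k}) (w := cs.wordProd [k])
    (by
      rw [wordProd_singleton]
      exact Subgroup.subset_closure ⟨k, rfl, rfl⟩)
    (fn (cc q k)) (fun i => by
      rw [hrep, fn_sr, fn_apply]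
      fin_cases k <;> fin_cases i <;> simp only [mat, cc, Fin.zero_eta, Fin.mk_one, if_true, Fin.isValue,
        one_ne_zero, if_false, Matrix.cons_val_zero, Matrix.cons_val_one]
      · have e : -1 * (1 - (q : ℤ)) + 0 * (2 * q - 1) - q * (1 - q) = q ^ 2 - 1 := by ring
        rw [e]; exact hdv
      · have e : 3 * (1 - (q : ℤ)) + 1 * (2 * q - 1) - q * (2 * q - 1) = (-2) * ((q : ℤ) ^ 2 - 1) := by ring
        rw [e]; exact hdv.mul_left _
      · have e : 1 * (q : ℤ) + 1 * (1 - q) - q * q = (-1) * ((q : ℤ) ^ 2 - 1) := by ring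
        rw [e]; exact hdv.mul_left _
      · have e : 0 * (q : ℤ) + -1 * (1 - q) - q * (1 - q) = (q : ℤ) ^ 2 - 1 := by ring
        rw [e]; exact hdv)
    (fun r hr => reg (by exact_mod_cast hF) (by exact_mod_cast hN) k hr)
    (fun g hg j hj => by
      rw [Set.mem_singleton_iff] at hj
      subst hj
      have h3 := hg (sr j)
      rw [hrep, hom_eq g, Fin.sum_univ_two] at h3
      fin_cases j <;> simp only [mat, Fin.zero_eta, Fin.mk_one, if_true, Fin.isValue,
        one_ne_zero, if_false, Matrix.cons_val_zero, Matrix.cons_val_one] at h3 ⊢ <;> omega)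
  refine ⟨s, h1, fun n => ?_⟩
  rw [h2 n]
  exact forall_congr' fun i => by rw [fn_sr]

/-- **Two non conjugate elliptic elements for each node**, `q ≥ 5`. -/
theorem exists_ell (hp : IsType chevG2 2 CoxeterMatrix.G₂) {F : Type u} [Field F] [Fintype F]
    (hF : 5 ≤ Fintype.card F) (k : Fin 2) :
    ∃ t t' : ↥(chevG2.group F), Ell cs hp.isCartan (TT chevG2 F) (XX chevG2 2 F) {k} t ∧
      Ell cs hp.isCartan (TT chevG2 F) (XX chevG2 2 F) {k} t' ∧ ¬ IsConj t t' := by
  set q := Fintype.card F with hq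
  -- a small divisor `m` of `q² - 1`
  obtain ⟨m, N, hm1, hm, hN, hmq⟩ : ∃ m N : ℕ, 1 < m ∧ q ^ 2 = m * N + 1 ∧ 2 * q + 1 < N ∧ m.Coprime q := by
    by_cases h2 : q % 2 = 1
    · refine ⟨2, (q ^ 2 - 1) / 2, by norm_num, ?_, ?_, ?_⟩
      · have h3 : q ^ 2 % 2 = 1 := by rw [Nat.pow_mod, h2]
        have h4 : 0 < q ^ 2 := by positivity
        omega
      · have h5 : 5 * q ≤ q ^ 2 := by rw [pow_two]; exact Nat.mul_le_mul_right q hF
        omega
      · rw [Nat.coprime_two_left]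
        exact Nat.odd_iff.2 h2
    · have h3 : ¬ 3 ∣ q := by
        intro h3
        have h4 : 6 ∣ Fintype.card F := by
          rw [← hq]
          omega
        obtain ⟨p, _, n, hp, hc⟩ := FiniteField.card' F
        rw [hc] at h4
        have h5 : 2 ∣ p ^ (n : ℕ) := (by norm_num : (2 : ℕ) ∣ 6).trans h4
        have h6 : 3 ∣ p ^ (n : ℕ) := (by norm_num : (3 : ℕ) ∣ 6).trans h4
        have h7 := (Nat.prime_dvd_prime_iff_eq Nat.prime_two hp).1 (Nat.prime_two.dvd_of_dvd_pow h5)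
        have h8 := (Nat.prime_dvd_prime_iff_eq Nat.prime_three hp).1 (Nat.prime_three.dvd_of_dvd_pow h6)
        omega
      have h8 : 8 ≤ q := by
        have h6 : q ≠ 6 := by omega
        omega
      refine ⟨3, (q ^ 2 - 1) / 3, by norm_num, ?_, ?_, ?_⟩
      · have h4 : q ^ 2 % 3 = 1 := by
          have h5 : q % 3 = 1 ∨ q % 3 = 2 := by omega
          rcases h5 with h5 | h5 <;> rw [Nat.pow_mod, h5]
        have h5 : 0 < q ^ 2 := by positivity
        omega
      · have h5 : 8 * q ≤ q ^ 2 := by rw [pow_two]; exact Nat.mul_le_mul_right q h8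
        omega
      · exact (Nat.Prime.coprime_iff_not_dvd Nat.prime_three).2 h3
  have hN1 : 2 * q + 1 < q ^ 2 - 1 := by
    have : N ≤ m * N := Nat.le_mul_of_pos_left N (by omega)
    omega
  have hpos : 0 < q ^ 2 := by positivity
  obtain ⟨t, ht, hto⟩ := elt cs hp hF (N := q ^ 2 - 1) (m := 1) (by rw [one_mul, Nat.sub_add_cancel hpos]) hN1 k
  obtain ⟨t', ht', hto'⟩ := elt cs hp hF hm hN k
  refine ⟨t, t', ht, ht', fun h => not_isConj (m := N) ?_ (fun h1 => ?_) h.symm⟩
  · rw [hto']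
    intro i
    exact Dvd.intro _ rfl
  · rw [hto] at h1
    have e : ((q ^ 2 - 1 : ℕ) : ℤ) = N * m := by
      have : q ^ 2 - 1 = N * m := by rw [hm, Nat.add_sub_cancel, mul_comm]
      rw [this, Nat.cast_mul]
    have hN0 : (N : ℤ) ≠ 0 := by omega
    have h2 : ∀ i, (m : ℤ) ∣ cc q k i := fun i => by
      have h3 := h1 i
      rw [e] at h3
      exact Int.dvd_of_mul_dvd_mul_left hN0 h3
    have h3 : (m : ℤ) ∣ q := by
      have h4 := h2 0
      have h5 := h2 1
      fin_cases k <;> simp only [cc, Fin.zero_eta, Fin.mk_one, if_true, Fin.isValue, one_ne_zero, if_false,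
        Matrix.cons_val_zero, Matrix.cons_val_one] at h4 h5
      · have := dvd_add h4 h5
        rwa [show (1 : ℤ) - q + (2 * q - 1) = q by ring] at this
      · exact h4
    have h4 : m ∣ q := by exact_mod_cast h3
    have h5 := Nat.dvd_gcd (dvd_refl m) h4
    rw [hmq.gcd_eq_one] at h5
    exact hm1.ne' (Nat.dvd_one.1 h5)

end Cfsg.Agent.H446.OZ.GTwo
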