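import Cfsg.Agent.H849.OZ.Bad

/-!
# One vanishing class: two rational classes with prescribed residues (helper446, S4842 rows `Ru`, `Th`)

* `rat_congr`, `av_congr` : congruences of rational values;
* `rat_of_conj` : `h y h⁻¹ = y ^ g`, `g` a primitive root modulo `|y| = p`: `y` is rational;
* `lar d q` : the absolute least residue; `lar_sq_le`;
* `ex_two`  : the excess inequality for two classes, in `ℕ`.
-/

set_option autoImplicit false

open Cfsg Cfsg.Agent.Characters Cfsg.Agent.H686.CharKit Cfsg.Agent.H732.VZ Cfsg.Agent.H604.OZ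

namespace Cfsg.Agent.H446.OZ

universe u

variable {G : Type u} [Group G]

/-- `y` is conjugate to its powers with exponent prime to the order of the group. -/
def Ratl (y : G) : Prop := ∀ m : ℕ, m.Coprime (Nat.card G) → IsConj (y ^ m) y

theorem isConj_pow_pow {y h : G} {g : ℕ} (hh : h * y * h⁻¹ = y ^ g) (j : ℕ) : IsConj y (y ^ g ^ j) := by
  induction j with
  | zero => rw [pow_zero, pow_one]
  | succ j ih =>
    refine ih.trans ?_
    rw [isConj_iff]
    refine ⟨h, ?_⟩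
    rw [pow_succ', pow_mul, ← hh, conj_pow]

theorem rat_of_conj [Finite G] {y h : G} {p g : ℕ} (hp : p.Prime) (ho : orderOf y = p) (hh : h * y * h⁻¹ = y ^ g)
    (hg : ∀ r < p, r ≠ 0 → ∃ j < p, g ^ j % p = r) : Ratl y := by
  intro m hm
  have hpd : p ∣ Nat.card G := by rw [← ho]; exact _root_.orderOf_dvd_natCard y
  have hm' : m % p ≠ 0 := by
    intro h0
    have h1 : p ∣ m := Nat.dvd_of_mod_eq_zero h0
    have h2 : p ∣ 1 := by rw [← hm.gcd_eq_one]; exact Nat.dvd_gcd h1 hpd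
    exact hp.one_lt.ne' (Nat.dvd_one.1 h2)
  obtain ⟨j, -, hj⟩ := hg (m % p) (Nat.mod_lt _ hp.pos) hm'
  have h1 : y ^ m = y ^ g ^ j := by
    rw [← pow_mod_orderOf y m, ← pow_mod_orderOf y (g ^ j), ho, hj]
  rw [h1]
  exact (isConj_pow_pow hh j).symm

/-- rationality of a conjugate -/
theorem Ratl.conj [Finite G] {a b : G} (h : Ratl a) (hab : IsConj a b) : Ratl b := by
  intro m hm
  exact ((H849.OZ.isConj_pow hab m).symm.trans (h m hm)).trans hab

variable [Finite G] {χ : IrrCharacter G} {x : G}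

theorem av_int {g : G} {k : ℤ} (hk : (χ : G → ℂ) g = k) : av χ g = (k : AlgInt) := by
  apply Subtype.ext
  rw [av_coe, hk]
  simp

/-- the values at `g` and at a power `g ^ j` with the same `r'`-part -/
theorem av_congr {r : ℕ} (hr : r.Prime) {g : G} {j n : ℕ} (hj : (g ^ j) ^ (r ^ n) = g ^ (r ^ n)) {k l : ℤ}
    (hk : (χ : G → ℂ) g = k) (hl : (χ : G → ℂ) (g ^ j) = l) : (r : ℤ) ∣ k - l := by
  obtain ⟨M, hM⟩ := Blocks.ExistsModular.exists_isPModular hr
  have h1 := H849.OZ.av_sub_mem (χ := χ) hr hM.2.1.isPrime hM.2.2 g hj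
  rw [av_int hk, av_int hl, ← Int.cast_sub, int_mem_iff hr hM.2.1.isPrime hM.2.2] at h1
  exact h1

/-- the value at an `r`-element is congruent to the degree -/
theorem rat_congr {r : ℕ} (hr : r.Prime) {g : G} (hg : ∃ n, orderOf g = r ^ n) {k : ℤ} (hk : (χ : G → ℂ) g = k) :
    (r : ℤ) ∣ (charDegree (χ : G → ℂ) : ℤ) - k := by
  obtain ⟨n, hn⟩ := hg
  have h1 := av_congr (χ := χ) hr (g := g) (j := 0) (n := n) (by
    rw [pow_zero, one_pow, ← hn, pow_orderOf_eq_one]) hk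
    (l := (charDegree (χ : G → ℂ) : ℤ)) (by rw [pow_zero, ← charDegree_irr χ]; simp)
  rw [← dvd_neg, neg_sub]
  exact h1

/-! ### the least absolute residue -/

/-- the absolute least residue -/
def lar (d q : ℕ) : ℕ := min (d % q) (q - d % q)

theorem lar_sq_le {d q : ℕ} (hq : 0 < q) {k : ℤ} (h : (q : ℤ) ∣ (d : ℤ) - k) : ((lar d q : ℕ) : ℤ) ^ 2 ≤ k ^ 2 := by
  have h0 : ((lar d q : ℕ) : ℤ) ≤ |k| := by
    have hm : (d % q : ℕ) < q := Nat.mod_lt _ hq
    obtain ⟨t, ht⟩ := h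
    have h1 : ((d % q : ℕ) : ℤ) = (d : ℤ) - q * (d / q : ℕ) := by
      have := Nat.mod_add_div d q
      have h2 : ((d % q : ℕ) : ℤ) + q * (d / q : ℕ) = d := by exact_mod_cast this
      linarith
    have hk : k = (d % q : ℕ) + q * ((d / q : ℕ) - t) := by
      have : k = (d : ℤ) - q * t := by linarith
      rw [this, h1]; ring
    set s : ℤ := (d / q : ℕ) - t with hs
    have hq' : (0 : ℤ) < q := by exact_mod_cast hq
    have hm' : ((d % q : ℕ) : ℤ) < q := by exact_mod_cast hm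
    have hm0 : (0 : ℤ) ≤ ((d % q : ℕ) : ℤ) := by positivity
    have hl1 : ((lar d q : ℕ) : ℤ) ≤ ((d % q : ℕ) : ℤ) := by
      have : lar d q ≤ d % q := min_le_left _ _
      exact_mod_cast this
    have hl2 : ((lar d q : ℕ) : ℤ) ≤ q - ((d % q : ℕ) : ℤ) := by
      have h3 : lar d q ≤ q - d % q := min_le_right _ _
      have h4 : ((lar d q : ℕ) : ℤ) ≤ ((q - d % q : ℕ) : ℤ) := by exact_mod_cast h3
      rw [Nat.cast_sub hm.le] at h4
      exact h4
    rcases le_or_gt 0 s with hs0 | hs0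
    · have : k ≥ (d % q : ℕ) := by
        rw [hk]
        have : 0 ≤ (q : ℤ) * s := mul_nonneg hq'.le hs0
        linarith
      exact (hl1.trans this).trans (le_abs_self k)
    · have : k ≤ (d % q : ℕ) - q := by
        rw [hk]
        have : (q : ℤ) * s ≤ q * (-1) := mul_le_mul_of_nonneg_left (by omega) hq'.le
        linarith
      have h5 : q - ((d % q : ℕ) : ℤ) ≤ -k := by linarith
      exact (hl2.trans h5).trans (neg_le_abs k)
  rw [← sq_abs k]
  exact pow_le_pow_left₀ (by positivity) h0 2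

/-- **The excess inequality for two rational classes.** -/
theorem ex_two (h : One χ x) {c0 : ℕ} (hc : c0 ≤ cent x) {y z : G} (hy : Ratl y) (hz : Ratl z) (hyz : ¬ IsConj y z)
    (hxy : ¬ IsConj x y) (hxz : ¬ IsConj x z) {k l : ℤ} (hk : (χ : G → ℂ) y = k) (hl : (χ : G → ℂ) z = l)
    {B C : ℕ} (hB : cent y ≤ B) (hC : cent z ≤ C) {a b : ℕ} (ha : 1 ≤ a) (hb : 1 ≤ b) (hak : (a : ℤ) ^ 2 ≤ k ^ 2)
    (hbl : (b : ℤ) ^ 2 ≤ l ^ 2) : c0 * ((a ^ 2 - 1) * C + (b ^ 2 - 1) * B) ≤ B * C := by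
  have h1 := H849.OZ.excess_rat h (Finset.univ : Finset (Fin 2)) ![y, z] ![k, l]
    (fun i _ => by fin_cases i; exacts [hy, hz]) (fun i _ => by fin_cases i; exacts [hk, hl])
    (fun i _ => by fin_cases i; exacts [hxy, hxz]) (fun i _ j _ hij => by
      fin_cases i <;> fin_cases j
      · exact absurd rfl hij
      · exact hyz
      · exact fun hc => hyz hc.symm
      · exact absurd rfl hij)
  rw [Fin.sum_univ_two] at h1
  simp only [Matrix.cons_val_zero, Matrix.cons_val_one] at h1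
  have hcy : (0 : ℝ) < cent y := by
    have : 0 < cent y := Nat.card_pos
    exact_mod_cast this
  have hcz : (0 : ℝ) < cent z := by
    have : 0 < cent z := Nat.card_pos
    exact_mod_cast this
  have hB' : (cent y : ℝ) ≤ B := by exact_mod_cast hB
  have hC' : (cent z : ℝ) ≤ C := by exact_mod_cast hC
  have hB0 : (0 : ℝ) < B := hcy.trans_le hB'
  have hC0 : (0 : ℝ) < C := hcz.trans_le hC'
  have hak' : ((a : ℝ)) ^ 2 ≤ (k : ℝ) ^ 2 := by exact_mod_cast hak
  have hbl' : ((b : ℝ)) ^ 2 ≤ (l : ℝ) ^ 2 := by exact_mod_cast hbl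
  have ha' : (1 : ℝ) ≤ (a : ℝ) ^ 2 := by
    have : (1 : ℝ) ≤ a := by exact_mod_cast ha
    nlinarith
  have hb' : (1 : ℝ) ≤ (b : ℝ) ^ 2 := by
    have : (1 : ℝ) ≤ b := by exact_mod_cast hb
    nlinarith
  have e1 : ((a : ℝ) ^ 2 - 1) / B ≤ ((k : ℝ) ^ 2 - 1) / cent y :=
    div_le_div₀ (by linarith) (by linarith) hcy hB'
  have e2 : ((b : ℝ) ^ 2 - 1) / C ≤ ((l : ℝ) ^ 2 - 1) / cent z :=
    div_le_div₀ (by linarith) (by linarith) hcz hC'
  have hc' : (c0 : ℝ) ≤ cent x := by exact_mod_cast hc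
  have h2 : (c0 : ℝ) * (((a : ℝ) ^ 2 - 1) / B + ((b : ℝ) ^ 2 - 1) / C) ≤ 1 := by
    refine le_trans ?_ h1
    refine mul_le_mul hc' (add_le_add e1 e2) ?_ (by positivity)
    exact add_nonneg (div_nonneg (by linarith) hB0.le) (div_nonneg (by linarith) hC0.le)
  have h3 : (c0 : ℝ) * (((a : ℝ) ^ 2 - 1) * C + ((b : ℝ) ^ 2 - 1) * B) ≤ B * C := by
    have h4 := mul_le_mul_of_nonneg_right h2 (mul_pos hB0 hC0).le
    rw [one_mul] at h4
    refine le_trans (le_of_eq ?_) h4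
    field_simp
  have ea : ((a ^ 2 - 1 : ℕ) : ℝ) = (a : ℝ) ^ 2 - 1 := by
    rw [Nat.cast_sub (Nat.one_le_pow _ _ ha)]; push_cast; ring
  have eb : ((b ^ 2 - 1 : ℕ) : ℝ) = (b : ℝ) ^ 2 - 1 := by
    rw [Nat.cast_sub (Nat.one_le_pow _ _ hb)]; push_cast; ring
  rw [← ea, ← eb] at h3
  exact_mod_cast h3

/-- the Boolean form of `ex_two` -/
def exOk (c0 q r B C d : ℕ) : Bool :=
  Nat.blt 0 (lar d q) && (Nat.blt 0 (lar d r) &&
    Nat.ble (c0 * ((lar d q ^ 2 - 1) * C + (lar d r ^ 2 - 1) * B)) (B * C))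

theorem lar_pos {d q : ℕ} (hq : 0 < q) (h : ¬ q ∣ d) : 1 ≤ lar d q := by
  have h1 : d % q ≠ 0 := fun h0 => h (Nat.dvd_of_mod_eq_zero h0)
  have h2 := Nat.mod_lt d hq
  unfold lar
  omega

/-- **Two rational classes of elements with `χ(y) ≡ d` modulo `q`, `χ(z) ≡ d` modulo `r`.** -/
theorem exOk_of (h : One χ x) {c0 : ℕ} (hc : c0 ≤ cent x) {y z : G} (hy : Ratl y) (hz : Ratl z)
    (hyz : orderOf y ≠ orderOf z) {q r : ℕ} (hq : 0 < q) (hr : 0 < r) (hqd : ¬ q ∣ charDegree (χ : G → ℂ))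
    (hrd : ¬ r ∣ charDegree (χ : G → ℂ))
    (hk : ∀ k : ℤ, (χ : G → ℂ) y = k → (q : ℤ) ∣ (charDegree (χ : G → ℂ) : ℤ) - k)
    (hl : ∀ k : ℤ, (χ : G → ℂ) z = k → (r : ℤ) ∣ (charDegree (χ : G → ℂ) : ℤ) - k)
    {B C : ℕ} (hB : cent y ≤ B) (hC : cent z ≤ C) : exOk c0 q r B C (charDegree (χ : G → ℂ)) = true := by
  have hcf := Core.isIrr_isClassFunction χ.2
  obtain ⟨k, hk'⟩ := H849.OZ.rat (χ := χ) hy
  obtain ⟨l, hl'⟩ := H849.OZ.rat (χ := χ) hz
  have hxy : ¬ IsConj x y := fun hcon => by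
    have h1 : (χ : G → ℂ) y = (0 : ℤ) := by
      rw [← Core.classFunction_apply_eq hcf hcon, h.zero]; simp
    have h2 := hk 0 h1
    rw [sub_zero] at h2
    exact hqd (by exact_mod_cast h2)
  have hxz : ¬ IsConj x z := fun hcon => by
    have h1 : (χ : G → ℂ) z = (0 : ℤ) := by
      rw [← Core.classFunction_apply_eq hcf hcon, h.zero]; simp
    have h2 := hl 0 h1
    rw [sub_zero] at h2
    exact hrd (by exact_mod_cast h2)
  have h1 := ex_two h hc hy hz (fun hcon => hyz (orderOf_eq_of_conj hcon)) hxy hxz hk' hl' hB hC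
    (lar_pos hq hqd) (lar_pos hr hrd) (lar_sq_le hq (hk k hk')) (lar_sq_le hr (hl l hl'))
  unfold exOk
  rw [Bool.and_eq_true, Bool.and_eq_true, Nat.blt_eq, Nat.blt_eq, Nat.ble_eq]
  exact ⟨lar_pos hq hqd, lar_pos hr hrd, h1⟩

end Cfsg.Agent.H446.OZ
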